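import Cfsg.Agent.Lib.Helper8.Ree14

set_option autoImplicit false
set_option linter.unusedSectionVars false
set_option linter.unusedVariables false

/-! Elements of odd order of the torus of the Ree groups. -/

namespace Cfsg.Agent.Lib.Helper8

open Cfsg Cfsg.Lie

theorem card_odd_order_units {K : Type*} [Field K] [Fintype K] (h4 : Fintype.card K % 4 = 3) :
    2 * Nat.card {z : Kˣ // Odd (orderOf z)} = Fintype.card K - 1 := by
  classical
  obtain ⟨k, hk⟩ : ∃ k, Fintype.card K = 4 * k + 3 := ⟨Fintype.card K / 4, by omega⟩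
  have hq : Fintype.card K - 1 = 2 * (2 * k + 1) := by omega
  have hodd : Odd (2 * k + 1) := ⟨k, rfl⟩
  have hpow : ∀ z : Kˣ, z ^ (2 * (2 * k + 1)) = 1 := by
    intro z
    rw [← hq, ← Fintype.card_units]
    exact pow_card_eq_one
  have key : ∀ z : Kˣ, Odd (orderOf z) ↔ z ^ (2 * k + 1) = 1 := by
    intro z
    constructor
    · intro h
      have h1 : orderOf z ∣ 2 * (2 * k + 1) := orderOf_dvd_of_pow_eq_one (hpow z)
      have h2 : Nat.Coprime (orderOf z) 2 := Nat.Coprime.symm (Nat.coprime_two_left.mpr h)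
      exact orderOf_dvd_iff_pow_eq_one.mp (h2.dvd_of_dvd_mul_left h1)
    · intro h
      exact Odd.of_dvd_nat hodd (orderOf_dvd_of_pow_eq_one h)
  have hne : (-1 : Kˣ) ≠ 1 := by
    intro h
    have h1 : (-1 : K) = 1 := by
      have := congrArg Units.val h
      simpa using this
    have h2 : ringChar K = 2 := by
      rw [← neg_one_eq_one_iff]; exact h1
    have h3 : 2 ∣ Fintype.card K := by
      have : (Fintype.card K : K) = 0 := Nat.cast_card_eq_zero K
      rw [← h2]
      exact (ringChar.spec K _).mp this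
    omega
  have hsw : ∀ z : Kˣ, Odd (orderOf z) ↔ ¬ Odd (orderOf (-z)) := by
    intro z
    rw [key, key, hodd.neg_pow]
    have h1 : (z ^ (2 * k + 1)) ^ 2 = 1 := by rw [← pow_mul, mul_comm]; exact hpow z
    have h2 : z ^ (2 * k + 1) = 1 ∨ z ^ (2 * k + 1) = -1 := by
      have h3 : ((z ^ (2 * k + 1) : Kˣ) : K) ^ 2 = 1 := by
        have := congrArg Units.val h1
        simpa using this
      rcases (by simpa using h3 : ((z ^ (2 * k + 1) : Kˣ) : K) = 1 ∨ ((z ^ (2 * k + 1) : Kˣ) : K) = -1) with h | h
      · left; exact Units.ext h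
      · right; exact Units.ext (by simpa using h)
    rcases h2 with h | h
    · rw [h]; simp [hne]
    · rw [h]; simp [hne]
  have e1 : Nat.card {z : Kˣ // Odd (orderOf z)} = Nat.card {z : Kˣ // ¬ Odd (orderOf z)} :=
    Nat.card_congr (Equiv.subtypeEquiv (Equiv.neg Kˣ) hsw)
  have e2 : Nat.card {z : Kˣ // Odd (orderOf z)} + Nat.card {z : Kˣ // ¬ Odd (orderOf z)} = Nat.card Kˣ := by
    rw [← Nat.card_sum]
    exact Nat.card_congr (Equiv.sumCompl _)
  rw [Nat.card_eq_fintype_card (α := Kˣ), Fintype.card_units] at e2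
  omega

section
variable {K : Type*} [Field K] (φ : K →+* K)

theorem card_odd_order_hR [Fintype K] (h4 : Fintype.card K % 4 = 3) :
    2 * Nat.card {h : ↥(hR φ).range // Odd (orderOf h)} = Fintype.card K - 1 := by
  rw [← card_odd_order_units h4]
  congr 1
  let e := MonoidHom.ofInjective (hR_injective φ)
  exact (Nat.card_congr (Equiv.subtypeEquiv e.toEquiv (fun z => by
    show Odd (orderOf z) ↔ Odd (orderOf (e z))
    rw [MulEquiv.orderOf_eq]))).symm

variable [CharP K 3] [Fintype K] (hinj : Function.Injective (isoR1 hG2 isoOK_G2 (F := K)))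
  (hφ : ∀ t, φ (φ t) ^ 3 = t)
include hinj hφ

/-- the centraliser in the torus of a non-trivial element of `U¹` -/
theorem hR_centralizes {z : Kˣ} {t u v : K} (h : hR φ z * alphaR φ t u v * (hR φ z)⁻¹ = alphaR φ t u v) :
    (v ≠ 0 → z = 1) ∧ (u ≠ 0 → z ^ 2 = 1) ∧ (t ≠ 0 → z = 1) := by
  rw [conj_hR_alphaR φ hinj hφ] at h
  obtain ⟨h1, h2, h3⟩ := alphaR_inj φ h
  have hz0 : (z : K) ≠ 0 := z.ne_zero
  have hw0 : φ z ≠ 0 := by rwa [Ne, map_eq_zero]
  refine ⟨fun hv => ?_, fun hu => ?_, fun ht => ?_⟩
  · rw [chR_11] at h3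
    apply Units.ext
    have : ((z : K) - 1) * v = 0 := by linear_combination h3
    rcases mul_eq_zero.mp this with h | h
    · simpa using sub_eq_zero.mp h
    · exact absurd h hv
  · rw [chR_10] at h2
    have e1 : φ z ^ 3 = z := by
      have : (φ z ^ 3 * (z : K)⁻¹ - 1) * u = 0 := by linear_combination h2
      rcases mul_eq_zero.mp this with h | h
      · field_simp at h
        linear_combination h
      · exact absurd h hu
    have e2 : φ z = z := by
      have := congrArg φ e1
      rw [map_pow, hφ] at this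
      exact this.symm
    rw [e2] at e1
    apply Units.ext
    have : (z : K) * ((z : K) ^ 2 - 1) = 0 := by linear_combination e1
    rcases mul_eq_zero.mp this with h | h
    · exact absurd h hz0
    · simpa using sub_eq_zero.mp h
  · rw [chR_6] at h1
    have e1 : (z : K) ^ 2 = φ z ^ 3 := by
      have : ((φ z ^ 3)⁻¹ * (z : K) ^ 2 - 1) * t = 0 := by linear_combination h1
      rcases mul_eq_zero.mp this with h | h
      · field_simp at h
        linear_combination h
      · exact absurd h ht
    have e2 : φ z ^ 2 = z := by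
      have := congrArg φ e1
      rw [map_pow, map_pow, hφ] at this
      exact this
    have e3 : φ z = z := by
      have : (z : K) * (φ z - z) = 0 := by
        have e4 : φ z ^ 3 = φ z ^ 2 * φ z := by ring
        rw [e4, e2] at e1
        linear_combination -e1
      rcases mul_eq_zero.mp this with h | h
      · exact absurd h hz0
      · exact sub_eq_zero.mp h
    rw [e3] at e2
    apply Units.ext
    have : (z : K) * ((z : K) - 1) = 0 := by linear_combination e2
    rcases mul_eq_zero.mp this with h | h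
    · exact absurd h hz0
    · simpa using sub_eq_zero.mp h

theorem odd_centralizer {h : GL chevG2.Idx K} (hh : h ∈ (hR φ).range) (h1 : h ≠ 1) (hodd : Odd (orderOf h)) :
    (chevG2.posUnipotent K ⊓ reeG φ) ⊓ Subgroup.centralizer {h} = ⊥ := by
  obtain ⟨z, rfl⟩ := hh
  rw [orderOf_injective (hR φ) (hR_injective φ)] at hodd
  have hz1 : z ≠ 1 := by
    rintro rfl
    exact h1 (map_one _)
  rw [eq_bot_iff]
  rintro x ⟨hx, hc⟩
  obtain ⟨t, u, v, rfl⟩ := (mem_posU_inf_reeG φ hinj hφ).mp hx
  have hc : alphaR φ t u v ∈ Subgroup.centralizer {(hR φ) z} := hc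
  rw [Subgroup.mem_centralizer_singleton_iff] at hc
  have e : hR φ z * alphaR φ t u v * (hR φ z)⁻¹ = alphaR φ t u v := by
    rw [mul_inv_eq_iff_eq_mul]
    first | exact hc | exact hc.symm
  obtain ⟨a, b, c⟩ := hR_centralizes φ hinj hφ e
  have hv : v = 0 := by
    by_contra hv
    exact hz1 (a hv)
  have ht : t = 0 := by
    by_contra ht
    exact hz1 (c ht)
  have hu : u = 0 := by
    by_contra hu
    have h2 := orderOf_dvd_of_pow_eq_one (b hu)
    have h3 : Nat.Coprime (orderOf z) 2 := Nat.Coprime.symm (Nat.coprime_two_left.mpr hodd)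
    have h4 : orderOf z = 1 := Nat.Coprime.eq_one_of_dvd h3 h2
    exact hz1 (orderOf_eq_one_iff.mp h4)
  rw [Subgroup.mem_bot, ht, hu, hv]
  unfold alphaR P6 s4
  simp [xG_zero]

end

end Cfsg.Agent.Lib.Helper8
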