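import Cfsg.Agent.Lib.Helper8.Ree15
import Cfsg.Agent.Lib.Helper8.Ree17

set_option autoImplicit false
set_option linter.unusedSectionVars false
set_option linter.unusedVariables false

/-! The stabiliser of three points in the Ree groups. -/

namespace Cfsg.Agent.Lib.Helper8

open Cfsg Cfsg.Lie

theorem mem_stab_coset {G : Type*} [Group G] (H : Subgroup G) (a s : G) :
    s ∈ MulAction.stabilizer G (a : G ⧸ H) ↔ a⁻¹ * s * a ∈ H := by
  rw [MulAction.mem_stabilizer_iff]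
  show ((s * a : G) : G ⧸ H) = a ↔ _
  rw [eq_comm, QuotientGroup.eq, mul_assoc]

section
variable {K : Type*} [Field K] (φ : K →+* K)
variable [CharP K 3] [Fintype K] (hinj : Function.Injective (isoR1 hG2 isoOK_G2 (F := K)))
  (hφ : ∀ t, φ (φ t) ^ 3 = t)
variable {h0 : GL chevG2.Idx K} (hh0 : h0 ∈ chevG2.diagonalSubgroup K) (hn : h0 * n0 hG2 K ∈ reeG φ)
include hh0

omit [CharP K 3] [Fintype K] in
theorem nstar_conj_borel {w : GL chevG2.Idx K} (hw : w ∈ chevG2.posUnipotent K)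
    (h : (h0 * n0 hG2 K) * w * (h0 * n0 hG2 K)⁻¹ ∈ chevG2.borelSubgroup K) : w = 1 := by
  have h4 : (h0 * n0 hG2 K) * w * (h0 * n0 hG2 K)⁻¹ ∈ chevG2.borelSubgroup K ⊓ chevG2.negUnipotent K :=
    ⟨h, nstar_conj_posU hh0 hw⟩
  rw [borel_inf_negU hG2, Subgroup.mem_bot] at h4
  have := congrArg (fun z => (h0 * n0 hG2 K)⁻¹ * z * (h0 * n0 hG2 K)) h4
  simpa [mul_assoc] using this

omit [CharP K 3] [Fintype K] in
theorem nstar_conj_diag_borel {h : GL chevG2.Idx K} (hh : h ∈ chevG2.diagonalSubgroup K) :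
    (h0 * n0 hG2 K) * h * (h0 * n0 hG2 K)⁻¹ ∈ chevG2.borelSubgroup K :=
  diag_le_borel hG2 (mono_conj_diag hG2 (nstar_mem_mono hh0) hh)

include hinj hφ hn

theorem ree_big_cell {g : GL chevG2.Idx K} (hg : g ∈ reeG φ) (hgB : g ∉ chevG2.borelSubgroup K) :
    ∃ u ∈ chevG2.posUnipotent K ⊓ reeG φ, ∃ b ∈ chevG2.borelSubgroup K ⊓ reeG φ,
      g = u * (h0 * n0 hG2 K)⁻¹ * b := by
  rcases reeG_cases φ hinj hφ hh0 hn (inv_mem hg) with ⟨u, hu, h, hh, e⟩ | ⟨u, hu, h, hh, v, hv, e⟩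
  · exfalso
    apply hgB
    have : g = (u * h)⁻¹ := by rw [← e, inv_inv]
    rw [this]
    exact inv_mem (mul_mem (posU_le_borel hG2 hu.1) (diag_le_borel hG2 hh.1))
  · refine ⟨v⁻¹, inv_mem hv, (u * h)⁻¹,
      Subgroup.mem_inf.mpr ⟨(chevG2.borelSubgroup K).inv_mem
        (mul_mem (posU_le_borel hG2 hu.1) (diag_le_borel hG2 hh.1)), (reeG φ).inv_mem (mul_mem hu.2 hh.2)⟩, ?_⟩
    have : g = (u * h * (h0 * n0 hG2 K) * v)⁻¹ := by rw [← e, inv_inv]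
    rw [this]
    group

theorem two_point {s : GL chevG2.Idx K} (hs : s ∈ reeG φ) (h1 : s ∈ chevG2.borelSubgroup K)
    (h2 : (h0 * n0 hG2 K) * s * (h0 * n0 hG2 K)⁻¹ ∈ chevG2.borelSubgroup K) :
    s ∈ chevG2.diagonalSubgroup K ⊓ reeG φ := by
  rcases reeG_cases φ hinj hφ hh0 hn hs with ⟨u, hu, h, hh, e⟩ | ⟨u, hu, h, hh, v, hv, e⟩
  · have hu1 : u = 1 := by
      apply nstar_conj_borel hh0 hu.1
      have : (h0 * n0 hG2 K) * u * (h0 * n0 hG2 K)⁻¹ =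
          ((h0 * n0 hG2 K) * s * (h0 * n0 hG2 K)⁻¹) * ((h0 * n0 hG2 K) * h * (h0 * n0 hG2 K)⁻¹)⁻¹ := by
        rw [e]; group
      rw [this]
      exact mul_mem h2 (inv_mem (nstar_conj_diag_borel hh0 hh.1))
    rw [e, hu1, one_mul]
    exact hh
  · exfalso
    apply nstar_not_mem_borel hh0
    have : h0 * n0 hG2 K = (u * h)⁻¹ * s * v⁻¹ := by rw [e]; group
    rw [this]
    exact mul_mem (mul_mem (inv_mem (mul_mem (posU_le_borel hG2 hu.1) (diag_le_borel hG2 hh.1))) h1)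
      (inv_mem (posU_le_borel hG2 hv.1))

theorem three_point {z : Kˣ} {w : GL chevG2.Idx K} (hw : w ∈ chevG2.posUnipotent K ⊓ reeG φ) (hw1 : w ≠ 1)
    (h : (w * (h0 * n0 hG2 K)⁻¹)⁻¹ * hR φ z * (w * (h0 * n0 hG2 K)⁻¹) ∈ chevG2.borelSubgroup K) :
    z ^ 2 = 1 := by
  have hc : w⁻¹ * (hR φ z * w * (hR φ z)⁻¹) = 1 := by
    apply nstar_conj_borel hh0 (mul_mem (inv_mem hw.1)
      ((Subgroup.le_normalizer_iff.mp (diag_le_normalizer_posU hG2)) _ (hR_mem_diag φ z) _ hw.1))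
    have : (h0 * n0 hG2 K) * (w⁻¹ * (hR φ z * w * (hR φ z)⁻¹)) * (h0 * n0 hG2 K)⁻¹ =
        ((w * (h0 * n0 hG2 K)⁻¹)⁻¹ * hR φ z * (w * (h0 * n0 hG2 K)⁻¹)) *
          ((h0 * n0 hG2 K) * hR φ z * (h0 * n0 hG2 K)⁻¹)⁻¹ := by group
    rw [this]
    exact mul_mem h (inv_mem (nstar_conj_diag_borel hh0 (hR_mem_diag φ z)))
  obtain ⟨t, u, v, rfl⟩ := (mem_posU_inf_reeG φ hinj hφ).mp hw
  have hc' : hR φ z * alphaR φ t u v * (hR φ z)⁻¹ = alphaR φ t u v := by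
    have := congrArg (fun y => alphaR φ t u v * y) hc
    simpa using this
  obtain ⟨a1, a2, a3⟩ := hR_centralizes φ hinj hφ hc'
  by_cases hv : v = 0
  · by_cases hu : u = 0
    · by_cases ht : t = 0
      · subst hv hu ht
        exact absurd (alphaR_zero φ) hw1
      · rw [a3 ht]; simp
    · exact a2 hu
  · rw [a1 hv]; simp

theorem three_stab (hH : chevG2.diagonalSubgroup K ⊓ reeG φ = (hR φ).range)
    {a b c : GL chevG2.Idx K} (ha : a ∈ reeG φ) (hb : b ∈ reeG φ) (hc : c ∈ reeG φ)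
    (hab : a⁻¹ * b ∉ chevG2.borelSubgroup K) (hac : a⁻¹ * c ∉ chevG2.borelSubgroup K)
    (hbc : b⁻¹ * c ∉ chevG2.borelSubgroup K) :
    ∃ g ∈ reeG φ, ∀ s ∈ reeG φ, a⁻¹ * s * a ∈ chevG2.borelSubgroup K → b⁻¹ * s * b ∈ chevG2.borelSubgroup K →
      c⁻¹ * s * c ∈ chevG2.borelSubgroup K → s = 1 ∨ s = g * hR φ (-1) * g⁻¹ := by
  obtain ⟨u, hu, b', hb', e1⟩ := ree_big_cell φ hinj hφ hh0 hn (mul_mem (inv_mem ha) hb) hab
  have huB := posU_le_borel hG2 hu.1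
  have hgc : (a * u)⁻¹ * c ∉ chevG2.borelSubgroup K := by
    intro h
    apply hac
    have : a⁻¹ * c = u * ((a * u)⁻¹ * c) := by group
    rw [this]
    exact mul_mem huB h
  have hgR : a * u ∈ reeG φ := mul_mem ha hu.2
  obtain ⟨w, hw, c', hc', e2⟩ := ree_big_cell φ hinj hφ hh0 hn (mul_mem (inv_mem hgR) hc) hgc
  have eb : b = a * u * (h0 * n0 hG2 K)⁻¹ * b' := by
    have : b = a * (a⁻¹ * b) := by group
    rw [this, e1]; group
  have ec : c = a * u * (w * (h0 * n0 hG2 K)⁻¹) * c' := by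
    have : c = (a * u) * ((a * u)⁻¹ * c) := by group
    rw [this, e2]; group
  have hw1 : w ≠ 1 := by
    rintro rfl
    apply hbc
    have : b⁻¹ * c = b'⁻¹ * c' := by rw [eb, ec]; group
    rw [this]
    exact mul_mem (inv_mem hb'.1) hc'.1
  refine ⟨a * u, hgR, fun s hs h1 h2 h3 => ?_⟩
  have k1 : (a * u)⁻¹ * s * (a * u) ∈ chevG2.borelSubgroup K := by
    have : (a * u)⁻¹ * s * (a * u) = u⁻¹ * (a⁻¹ * s * a) * u := by group
    rw [this]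
    exact mul_mem (mul_mem (inv_mem huB) h1) huB
  have k2 : (h0 * n0 hG2 K) * ((a * u)⁻¹ * s * (a * u)) * (h0 * n0 hG2 K)⁻¹ ∈ chevG2.borelSubgroup K := by
    have : (h0 * n0 hG2 K) * ((a * u)⁻¹ * s * (a * u)) * (h0 * n0 hG2 K)⁻¹ = b' * (b⁻¹ * s * b) * b'⁻¹ := by
      rw [eb]; group
    rw [this]
    exact mul_mem (mul_mem hb'.1 h2) (inv_mem hb'.1)
  have k0 : (a * u)⁻¹ * s * (a * u) ∈ reeG φ := mul_mem (mul_mem (inv_mem hgR) hs) hgR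
  have k3 := two_point φ hinj hφ hh0 hn k0 k1 k2
  rw [hH] at k3
  obtain ⟨z, hz⟩ := k3
  have k4 : (w * (h0 * n0 hG2 K)⁻¹)⁻¹ * hR φ z * (w * (h0 * n0 hG2 K)⁻¹) ∈ chevG2.borelSubgroup K := by
    have : (w * (h0 * n0 hG2 K)⁻¹)⁻¹ * hR φ z * (w * (h0 * n0 hG2 K)⁻¹) = c' * (c⁻¹ * s * c) * c'⁻¹ := by
      rw [hz, ec]; group
    rw [this]
    exact mul_mem (mul_mem hc'.1 h3) (inv_mem hc'.1)
  have k5 := three_point φ hinj hφ hh0 hn hw hw1 k4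
  have es : s = (a * u) * hR φ z * (a * u)⁻¹ := by rw [hz]; group
  have k6 : (z : K) * z = 1 := by
    have := congrArg Units.val k5
    simpa [sq] using this
  rcases mul_self_eq_one_iff.mp k6 with k7 | k7
  · left
    have : z = 1 := Units.ext k7
    rw [es, this, map_one]; group
  · right
    have : z = -1 := Units.ext (by simpa using k7)
    rw [es, this]

theorem ree_three_le (hH : chevG2.diagonalSubgroup K ⊓ reeG φ = (hR φ).range)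
    (x y z : ↥(reeG φ) ⧸ (chevG2.borelSubgroup K ⊓ reeG φ).subgroupOf (reeG φ)) (hxy : x ≠ y) (hxz : x ≠ z)
    (hyz : y ≠ z) :
    Nat.card ↥(MulAction.stabilizer ↥(reeG φ) x ⊓ MulAction.stabilizer ↥(reeG φ) y ⊓
      MulAction.stabilizer ↥(reeG φ) z) ≤ 2 := by
  induction x using QuotientGroup.induction_on with | H a => ?_
  induction y using QuotientGroup.induction_on with | H b => ?_
  induction z using QuotientGroup.induction_on with | H c => ?_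
  have key : ∀ p q : ↥(reeG φ),
      ((p : ↥(reeG φ) ⧸ (chevG2.borelSubgroup K ⊓ reeG φ).subgroupOf (reeG φ)) ≠ q) →
      (p : GL chevG2.Idx K)⁻¹ * q ∉ chevG2.borelSubgroup K := by
    intro p q hpq hB
    apply hpq
    rw [QuotientGroup.eq, Subgroup.mem_subgroupOf]
    exact ⟨hB, (p⁻¹ * q).2⟩
  obtain ⟨g, hg, H⟩ := three_stab φ hinj hφ hh0 hn hH a.2 b.2 c.2 (key a b hxy) (key a c hxz) (key b c hyz)
  have hm : g * hR φ (-1) * g⁻¹ ∈ reeG φ := mul_mem (mul_mem hg (hR_neg_one_mem φ hinj hφ)) (inv_mem hg)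
  have hsub : ((MulAction.stabilizer ↥(reeG φ)
      (a : ↥(reeG φ) ⧸ (chevG2.borelSubgroup K ⊓ reeG φ).subgroupOf (reeG φ)) ⊓
      MulAction.stabilizer ↥(reeG φ) (b : ↥(reeG φ) ⧸ (chevG2.borelSubgroup K ⊓ reeG φ).subgroupOf (reeG φ)) ⊓
      MulAction.stabilizer ↥(reeG φ) (c : ↥(reeG φ) ⧸ (chevG2.borelSubgroup K ⊓ reeG φ).subgroupOf (reeG φ)) :
        Subgroup ↥(reeG φ)) : Set ↥(reeG φ)) ⊆ {1, ⟨g * hR φ (-1) * g⁻¹, hm⟩} := by
    intro s hs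
    obtain ⟨hs12, s3⟩ := Subgroup.mem_inf.mp (SetLike.mem_coe.mp hs)
    obtain ⟨s1, s2⟩ := Subgroup.mem_inf.mp hs12
    rw [mem_stab_coset, Subgroup.mem_subgroupOf] at s1 s2 s3
    rcases H s s.2 s1.1 s2.1 s3.1 with h | h
    · left; exact Subtype.ext h
    · right; exact Subtype.ext h
  calc _ = Set.ncard _ := (Nat.card_coe_set_eq _)
    _ ≤ Set.ncard _ := Set.ncard_le_ncard hsub (Set.toFinite _)
    _ ≤ 2 := (Set.ncard_insert_le _ _).trans (by rw [Set.ncard_singleton])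

theorem hR_neg_one_comm : hR φ (-1) * alphaR φ 0 1 0 * (hR φ (-1))⁻¹ = alphaR φ 0 1 0 := by
  rw [conj_hR_alphaR φ hinj hφ, chR_10]
  have : φ ((-1 : Kˣ) : K) ^ 3 * (((-1 : Kˣ) : K))⁻¹ * 1 = 1 := by
    rw [Units.val_neg, Units.val_one, map_neg, map_one]
    norm_num
  rw [this, mul_zero, mul_zero]

theorem ree_three_eq (hH : chevG2.diagonalSubgroup K ⊓ reeG φ = (hR φ).range) :
    ∃ x y z : ↥(reeG φ) ⧸ (chevG2.borelSubgroup K ⊓ reeG φ).subgroupOf (reeG φ), x ≠ y ∧ x ≠ z ∧ y ≠ z ∧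
    Nat.card ↥(MulAction.stabilizer ↥(reeG φ) x ⊓ MulAction.stabilizer ↥(reeG φ) y ⊓
      MulAction.stabilizer ↥(reeG φ) z) = 2 := by
  have hw1 : alphaR φ 0 1 0 ≠ 1 := by
    rw [← alphaR_zero φ]
    intro h
    exact one_ne_zero (alphaR_inj φ h).2.1
  have hwB : alphaR φ 0 1 0 ∈ chevG2.borelSubgroup K := posU_le_borel hG2 (alphaR_mem_posU φ 0 1 0)
  have hxy : ((1 : ↥(reeG φ)) : ↥(reeG φ) ⧸ (chevG2.borelSubgroup K ⊓ reeG φ).subgroupOf (reeG φ)) ≠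
      ((⟨(h0 * n0 hG2 K)⁻¹, inv_mem hn⟩ : ↥(reeG φ)) :
        ↥(reeG φ) ⧸ (chevG2.borelSubgroup K ⊓ reeG φ).subgroupOf (reeG φ)) := by
    intro h
    rw [QuotientGroup.eq, Subgroup.mem_subgroupOf] at h
    have h1 : (1 : GL chevG2.Idx K)⁻¹ * (h0 * n0 hG2 K)⁻¹ ∈ chevG2.borelSubgroup K := h.1
    rw [inv_one, one_mul] at h1
    exact nstar_not_mem_borel hh0 (by simpa using inv_mem h1)
  have hxz : ((1 : ↥(reeG φ)) : ↥(reeG φ) ⧸ (chevG2.borelSubgroup K ⊓ reeG φ).subgroupOf (reeG φ)) ≠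
      ((⟨alphaR φ 0 1 0 * (h0 * n0 hG2 K)⁻¹, mul_mem (alphaR_mem φ 0 1 0) (inv_mem hn)⟩ : ↥(reeG φ)) :
        ↥(reeG φ) ⧸ (chevG2.borelSubgroup K ⊓ reeG φ).subgroupOf (reeG φ)) := by
    intro h
    rw [QuotientGroup.eq, Subgroup.mem_subgroupOf] at h
    have h1 : (1 : GL chevG2.Idx K)⁻¹ * (alphaR φ 0 1 0 * (h0 * n0 hG2 K)⁻¹) ∈ chevG2.borelSubgroup K := h.1
    rw [inv_one, one_mul] at h1
    apply nstar_not_mem_borel hh0
    have : h0 * n0 hG2 K = (alphaR φ 0 1 0 * (h0 * n0 hG2 K)⁻¹)⁻¹ * alphaR φ 0 1 0 := by group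
    rw [this]
    exact mul_mem (inv_mem h1) hwB
  have hyz : ((⟨(h0 * n0 hG2 K)⁻¹, inv_mem hn⟩ : ↥(reeG φ)) :
        ↥(reeG φ) ⧸ (chevG2.borelSubgroup K ⊓ reeG φ).subgroupOf (reeG φ)) ≠
      ((⟨alphaR φ 0 1 0 * (h0 * n0 hG2 K)⁻¹, mul_mem (alphaR_mem φ 0 1 0) (inv_mem hn)⟩ : ↥(reeG φ)) :
        ↥(reeG φ) ⧸ (chevG2.borelSubgroup K ⊓ reeG φ).subgroupOf (reeG φ)) := by
    intro h
    rw [QuotientGroup.eq, Subgroup.mem_subgroupOf] at h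
    have h1 : ((h0 * n0 hG2 K)⁻¹)⁻¹ * (alphaR φ 0 1 0 * (h0 * n0 hG2 K)⁻¹) ∈ chevG2.borelSubgroup K := h.1
    rw [inv_inv, ← mul_assoc] at h1
    exact hw1 (nstar_conj_borel hh0 (alphaR_mem_posU φ 0 1 0) h1)
  refine ⟨_, _, _, hxy, hxz, hyz, le_antisymm (ree_three_le φ hinj hφ hh0 hn hH _ _ _ hxy hxz hyz) ?_⟩
  apply (Subgroup.one_lt_card_iff_ne_bot _).mpr
  intro hbot
  have hd := hR_mem_diag φ (-1 : Kˣ)
  have hmR := hR_neg_one_mem φ hinj hφ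
  have hmem : (⟨hR φ (-1), hmR⟩ : ↥(reeG φ)) ∈ (⊥ : Subgroup ↥(reeG φ)) := by
    rw [← hbot]
    refine Subgroup.mem_inf.mpr ⟨Subgroup.mem_inf.mpr ⟨?_, ?_⟩, ?_⟩
    · rw [mem_stab_coset, Subgroup.mem_subgroupOf]
      refine ⟨?_, Subtype.property _⟩
      show (1 : GL chevG2.Idx K)⁻¹ * hR φ (-1) * 1 ∈ chevG2.borelSubgroup K
      rw [inv_one, one_mul, mul_one]
      exact diag_le_borel hG2 hd
    · rw [mem_stab_coset, Subgroup.mem_subgroupOf]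
      refine ⟨?_, Subtype.property _⟩
      show ((h0 * n0 hG2 K)⁻¹)⁻¹ * hR φ (-1) * (h0 * n0 hG2 K)⁻¹ ∈ chevG2.borelSubgroup K
      rw [inv_inv]
      exact nstar_conj_diag_borel hh0 hd
    · rw [mem_stab_coset, Subgroup.mem_subgroupOf]
      refine ⟨?_, Subtype.property _⟩
      show (alphaR φ 0 1 0 * (h0 * n0 hG2 K)⁻¹)⁻¹ * hR φ (-1) * (alphaR φ 0 1 0 * (h0 * n0 hG2 K)⁻¹) ∈
        chevG2.borelSubgroup K
      have e : (alphaR φ 0 1 0 * (h0 * n0 hG2 K)⁻¹)⁻¹ * hR φ (-1) * (alphaR φ 0 1 0 * (h0 * n0 hG2 K)⁻¹) =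
          (h0 * n0 hG2 K) * ((alphaR φ 0 1 0)⁻¹ * (hR φ (-1) * alphaR φ 0 1 0 * (hR φ (-1))⁻¹) * hR φ (-1)) *
            (h0 * n0 hG2 K)⁻¹ := by group
      rw [e, hR_neg_one_comm φ hinj hφ hh0 hn, inv_mul_cancel, one_mul]
      exact nstar_conj_diag_borel hh0 hd
  rw [Subgroup.mem_bot] at hmem
  have h1 : hR φ (-1) = 1 := congrArg Subtype.val hmem
  have h2 : (-1 : Kˣ) = 1 := hR_injective φ (by rw [h1, map_one])
  have h3 : (-1 : K) = 1 := by simpa using congrArg Units.val h2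
  have h4 : ((2 : ℕ) : K) = 0 := by
    push_cast
    linear_combination -h3
  rw [CharP.cast_eq_zero_iff K 3] at h4
  omega

end

end Cfsg.Agent.Lib.Helper8
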