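import Cfsg.Agent.Lib.Helper8.RootCentr

set_option autoImplicit false
set_option linter.unusedSectionVars false

namespace Cfsg.Agent.Lib.Helper8

open Cfsg Cfsg.Lie

/-- all the constants vanish modulo `m` -/
def zeroMod (m : ℕ) (T : List (ℕ × ℤ × ℕ × ℕ)) : Bool := T.all fun c => decide (c.2.1 % (m : ℤ) = 0)

noncomputable def chkTop (D : ChevalleyDatum) (get : ℕ → RootRec) (θ m : ℕ) : Bool :=
  allR (fun s => Nat.blt s (D.nroots / 2) || (Nat.beq s θ ||
    zeroMod m (commTermsF (entryF D.rank D.nroots get) s θ))) D.nroots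

noncomputable def chkLevi (D : ChevalleyDatum) (get : ℕ → RootRec) (θ i0 m : ℕ) : Bool :=
  allR (fun i => Nat.beq i i0 || (!(Nat.beq θ (D.simple i)) &&
    zeroMod m (commTermsF (entryF D.rank D.nroots get) (D.neg (D.simple i)) θ))) D.rank

/-- the negatives of the fundamental roots other than the `i0`-th -/
def JsOf (D : ChevalleyDatum) (i0 : ℕ) : List ℕ :=
  ((List.range D.rank).filter (fun i => i != i0)).map (fun i => D.neg (D.simple i))

section
variable {D : ChevalleyDatum} (hD : D ∈ allData) {F : Type*} [Field F]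
include hD

theorem top_spec {θ m : ℕ} (hθ : D.IsPosRoot θ) (h : chkTop D (getOf D) θ m = true)
    (hm : ∀ z : ℤ, z % (m : ℤ) = 0 → (z : F) = 0) :
    ∀ s, D.IsPosRoot s → ∀ a : F, xG hD F s a ∈ cenX hD F θ := by
  intro s hs a
  rw [mem_cenX]
  intro b
  by_cases he : s = θ
  · subst he; exact xG_comm_self hD s a b
  simp only [chkTop, allR_iff] at h
  have h1 := h s hs.1
  have hs' := (isPos_iff hD).mp hs
  simp only [Bool.or_eq_true, Nat.blt_eq, Nat.beq_eq, zeroMod, List.all_eq_true, decide_eq_true_eq] at h1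
  rcases h1 with h1 | h1 | h1
  · omega
  · exact absurd h1 he
  · apply commute_of_terms hD hs.1 hθ.1 (fun h => he h.symm)
    · intro h2
      exact not_pos_and_neg hD hθ (h2 ▸ (isNeg_neg_iff hD hs.1).mpr hs)
    · intro c hc
      rw [commTerms_eq' hD] at hc
      exact hm _ (h1 c hc)

theorem levi_spec {θ i0 m : ℕ} (hθ : D.IsPosRoot θ) (h : chkLevi D (getOf D) θ i0 m = true)
    (hm : ∀ z : ℤ, z % (m : ℤ) = 0 → (z : F) = 0) :
    ∀ i < D.rank, i ≠ i0 → ∀ a : F, xG hD F (D.neg (D.simple i)) a ∈ cenX hD F θ := by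
  intro i hi hne a
  rw [mem_cenX]
  intro b
  simp only [chkLevi, allR_iff] at h
  have h1 := h i hi
  simp only [Bool.or_eq_true, Bool.and_eq_true, Nat.beq_eq, zeroMod, List.all_eq_true, decide_eq_true_eq,
    Bool.not_eq_true'] at h1
  rcases h1 with h1 | ⟨h0, h1⟩
  · exact absurd h1 hne
  · have hlt := simple_lt hD hi
    apply commute_of_terms hD (neg_lt' hD _ hlt) hθ.1
    · intro h2
      exact not_pos_and_neg hD hθ (h2 ▸ neg_simple_isNeg hD hi)
    · rw [neg_neg' hD hlt]
      intro h2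
      rw [h2, Nat.beq_refl] at h0
      simp at h0
    · intro c hc
      rw [commTerms_eq' hD] at hc
      exact hm _ (h1 c hc)

/-- the centraliser of a root element `x_θ(1)` that is central in `U` -/
theorem centralizer_root' {θ i0 m k : ℕ} {ε : ℤ} (hθ : D.IsPosRoot θ) (hi0 : i0 < D.rank)
    (h1 : chkTop D (getOf D) θ m = true) (h2 : chkLevi D (getOf D) θ i0 m = true)
    (hm : ∀ z : ℤ, z % (m : ℤ) = 0 → (z : F) = 0)
    (hne : θ ≠ D.simple i0) (hk : k < D.nroots)
    (h3 : commTermsF (entryF D.rank D.nroots (getOf D)) (D.neg (D.simple i0)) θ = [(k, ε, 1, 1)])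
    (hε : (ε : F) ≠ 0) (hc : D.cartan i0 θ = 1) :
    D.group F ⊓ Subgroup.centralizer {xG hD F θ 1} =
      D.posUnipotent F ⊔ Subgroup.closure {g : GL D.Idx F | ∃ s ∈ JsOf D i0, ∃ c : F, g = xG hD F s c} := by
  have hlt := simple_lt hD hi0
  have hJ := levi_spec (F := F) hD hθ h2 hm
  apply centralizer_root hD hθ.1 (top_spec hD hθ h1 hm) hJ ?_ hi0 hc
  · intro s hs a
    simp only [JsOf, List.mem_map, List.mem_filter, List.mem_range, bne_iff_ne] at hs
    obtain ⟨i, ⟨hi, hne⟩, rfl⟩ := hs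
    exact hJ i hi hne a
  · intro i hi hne
    simp only [JsOf, List.mem_map, List.mem_filter, List.mem_range, bne_iff_ne]
    exact ⟨i, ⟨hi, hne⟩, rfl⟩
  · apply not_commute_of_terms hD (neg_lt' hD _ hlt) hθ.1 ?_ ?_ hk (by rw [commTerms_eq' hD]; exact h3) hε
    · intro h4
      exact not_pos_and_neg hD hθ (h4 ▸ neg_simple_isNeg hD hi0)
    · rw [neg_neg' hD hlt]; exact hne

end

theorem zmod_zero {F : Type*} [Field F] : ∀ z : ℤ, z % ((0 : ℕ) : ℤ) = 0 → (z : F) = 0 := by
  intro z hz
  simp at hz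
  simp [hz]

theorem zmod_two {F : Type*} [Field F] [CharP F 2] : ∀ z : ℤ, z % ((2 : ℕ) : ℤ) = 0 → (z : F) = 0 := by
  intro z hz
  rw [CharP.intCast_eq_zero_iff F 2]
  exact Int.dvd_of_emod_eq_zero hz

theorem chkTop_G2 : chkTop chevG2 (getOf chevG2) 11 0 = true := by decide +kernel
theorem chkTop_D4 : chkTop chevD4 (getOf chevD4) 23 0 = true := by decide +kernel
theorem chkTop_F4 : chkTop chevF4 (getOf chevF4) 47 0 = true := by decide +kernel
theorem chkTop_F4s : chkTop chevF4 (getOf chevF4) 44 2 = true := by decide +kernel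
theorem chkTop_E6 : chkTop chevE6 (getOf chevE6) 71 0 = true := by decide +kernel
theorem chkTop_E7 : chkTop chevE7 (getOf chevE7) 125 0 = true := by decide +kernel
theorem chkTop_E8 : chkTop chevE8 (getOf chevE8) 239 0 = true := by decide +kernel

theorem chkLevi_G2 : chkLevi chevG2 (getOf chevG2) 11 1 0 = true := by decide +kernel
theorem chkLevi_D4 : chkLevi chevD4 (getOf chevD4) 23 1 0 = true := by decide +kernel
theorem chkLevi_F4 : chkLevi chevF4 (getOf chevF4) 47 3 0 = true := by decide +kernel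
theorem chkLevi_F4s : chkLevi chevF4 (getOf chevF4) 44 0 2 = true := by decide +kernel
theorem chkLevi_E6 : chkLevi chevE6 (getOf chevE6) 71 1 0 = true := by decide +kernel
theorem chkLevi_E7 : chkLevi chevE7 (getOf chevE7) 125 0 0 = true := by decide +kernel
theorem chkLevi_E8 : chkLevi chevE8 (getOf chevE8) 239 7 0 = true := by decide +kernel

theorem term_G2 : commTermsF (entryF chevG2.rank chevG2.nroots (getOf chevG2)) (chevG2.neg (chevG2.simple 1)) 11 =
    [(10, 1, 1, 1)] := by decide +kernel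
theorem term_D4 : commTermsF (entryF chevD4.rank chevD4.nroots (getOf chevD4)) (chevD4.neg (chevD4.simple 1)) 23 =
    [(22, 1, 1, 1)] := by decide +kernel
theorem term_F4 : commTermsF (entryF chevF4.rank chevF4.nroots (getOf chevF4)) (chevF4.neg (chevF4.simple 3)) 47 =
    [(46, 1, 1, 1)] := by decide +kernel
theorem term_F4s : commTermsF (entryF chevF4.rank chevF4.nroots (getOf chevF4)) (chevF4.neg (chevF4.simple 0)) 44 =
    [(40, 1, 1, 1)] := by decide +kernel
theorem term_E6 : commTermsF (entryF chevE6.rank chevE6.nroots (getOf chevE6)) (chevE6.neg (chevE6.simple 1)) 71 =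
    [(70, 1, 1, 1)] := by decide +kernel
theorem term_E7 : commTermsF (entryF chevE7.rank chevE7.nroots (getOf chevE7)) (chevE7.neg (chevE7.simple 0)) 125 =
    [(124, 1, 1, 1)] := by decide +kernel
theorem term_E8 : commTermsF (entryF chevE8.rank chevE8.nroots (getOf chevE8)) (chevE8.neg (chevE8.simple 7)) 239 =
    [(238, 1, 1, 1)] := by decide +kernel

end Cfsg.Agent.Lib.Helper8
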