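import Cfsg.Agent.Lib.Helper8.Centr

set_option autoImplicit false
set_option linter.unusedSectionVars false

namespace Cfsg.Agent.Lib.Helper8

open Cfsg Cfsg.Lie

section
variable {D : ChevalleyDatum} (hD : D ∈ allData) {F : Type*} [Field F] (σ : F →+* F)
include hD

theorem xG_of_ge {r : ℕ} (hr : ¬ r < D.nroots) (t : F) : xG hD F r t = 1 := by
  apply Units.ext
  rw [xG_coe, ChevalleyDatum.x, dif_neg hr]
  rfl

theorem glMap_mem_group {g : GL D.Idx F} (hg : g ∈ D.group F) : glMap D σ g ∈ D.group F := by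
  have : D.group F ≤ (D.group F).comap (glMap D σ) := by
    conv_lhs => rw [group_eq_closure hD]
    rw [Subgroup.closure_le]
    rintro g ⟨r, t, rfl⟩
    show glMap D σ (xG hD F r t) ∈ D.group F
    rw [glMap_xG]
    exact xG_mem_group hD r _
  exact this hg

/-- a fixed element is a product of a fixed diagonal element and elements of the small group -/
theorem fixed_decomp {g : GL D.Idx F} (hg : g ∈ D.group F) (hfix : glMap D σ g = g) :
    ∃ l₁ ∈ fixGroup hD σ, ∃ h ∈ D.diagonalSubgroup F, glMap D σ h = h ∧ ∃ l₂ ∈ fixGroup hD σ,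
      g = l₁ * h * l₂ := by
  obtain ⟨b, hb, L, hL, u, hu, rfl⟩ := normal_form_exists hD hg
  have hm := nR_mem_mono (F := F) hD L hL.lt
  rw [map_mul, map_mul, glMap_nR] at hfix
  obtain ⟨hb1, hu1⟩ := normal_form_unique hD (glMap_mem_borel hD σ hb) hb (glMap_mem_Uw hD σ hm hu) hu hfix
  obtain ⟨u1, hu1', h, hh, rfl⟩ := mem_borel hD hb
  rw [map_mul] at hb1
  have e2 : u1⁻¹ * glMap D σ u1 = h * (glMap D σ h)⁻¹ := by
    have : glMap D σ u1 = u1 * h * (glMap D σ h)⁻¹ := by rw [← hb1]; group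
    rw [this]; group
  have h3 : u1⁻¹ * glMap D σ u1 ∈ D.posUnipotent F ⊓ D.diagonalSubgroup F :=
    ⟨Subgroup.mul_mem _ (Subgroup.inv_mem _ hu1') (glMap_mem_posU hD σ hu1'), by
      rw [e2]; exact Subgroup.mul_mem _ hh (Subgroup.inv_mem _ (glMap_mem_diag hD σ hh))⟩
  rw [posU_inf_diag hD, Subgroup.mem_bot] at h3
  have h4 : glMap D σ u1 = u1 := by
    have := congrArg (fun z => u1 * z) h3
    simpa using this
  have h5 : glMap D σ h = h := by
    rw [h4] at hb1
    exact mul_left_cancel hb1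
  refine ⟨u1, posU_fixed_mem hD σ hu1' h4, h, hh, h5, nR hD F L * u,
    Subgroup.mul_mem _ (nR_mem_fixGroup hD σ L) (Uw_fixed_mem hD σ hL hu hu1), ?_⟩
  group

theorem diag_fixed_conj_fixGroup {h : GL D.Idx F} (hh : h ∈ D.diagonalSubgroup F)
    (hfix : glMap D σ h = h) {l : GL D.Idx F} (hl : l ∈ fixGroup hD σ) : h * l * h⁻¹ ∈ fixGroup hD σ := by
  rw [diag_eq_torus hD, mem_torus] at hh
  obtain ⟨c, rfl⟩ := hh
  have : fixGroup hD σ ≤ (fixGroup hD σ).comap (MulAut.conj (tG D c)).toMonoidHom := by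
    conv_lhs => rw [fixGroup]
    rw [Subgroup.closure_le]
    rintro g ⟨r, t, ht, rfl⟩
    show tG D c * xG hD F r t * (tG D c)⁻¹ ∈ fixGroup hD σ
    by_cases hr : r < D.nroots
    · have h1 := conj_tG_x (F := F) hD c hr 1
      have h2 := congrArg (glMap D σ) h1
      rw [map_mul, map_mul, map_inv, hfix, glMap_xG, glMap_xG, map_one, h1] at h2
      have h3 := xG_inj hD hr h2
      rw [mul_one] at h3
      rw [conj_tG_x hD c hr]
      exact xG_mem_fixGroup hD σ r (by rw [map_mul, ht, ← h3])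
    · rw [xG_of_ge hD hr]
      simp
  exact this hl

theorem subfield_centralizer_normalizer (K : Subgroup (GL D.Idx F)) (hKG : K ≤ D.group F)
    (hLK : fixGroup hD σ ≤ K) (hKfix : ∀ g ∈ K, glMap D σ g = g) :
    D.group F ⊓ Subgroup.centralizer (K : Set (GL D.Idx F)) = ⊥ ∧
    ∀ g ∈ D.group F, (g ∈ Subgroup.normalizer (K : Set (GL D.Idx F)) ↔ glMap D σ g = g) := by
  have hcen : ∀ g ∈ D.group F, g ∈ Subgroup.centralizer (K : Set (GL D.Idx F)) → g = 1 := by
    intro g hg hc
    apply eq_one_of_commute hD hg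
    intro r _
    exact ((Subgroup.mem_centralizer_iff.mp hc) _ (hLK (xG_mem_fixGroup hD σ r (map_one σ)))).symm
  have hconj : ∀ h ∈ D.diagonalSubgroup F, glMap D σ h = h → ∀ y ∈ K, h * y * h⁻¹ ∈ K := by
    intro h hh hfix y hy
    obtain ⟨l₁, hl₁, h', hh', -, l₂, hl₂, e⟩ := fixed_decomp hD σ (hKG hy) (hKfix y hy)
    have hh'K : h' ∈ K := by
      have : h' = l₁⁻¹ * y * l₂⁻¹ := by rw [e]; group
      rw [this]
      exact Subgroup.mul_mem _ (Subgroup.mul_mem _ (Subgroup.inv_mem _ (hLK hl₁)) hy)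
        (Subgroup.inv_mem _ (hLK hl₂))
    have hcomm : h * h' = h' * h := by
      rw [diag_eq_torus hD, mem_torus] at hh hh'
      obtain ⟨c, rfl⟩ := hh
      obtain ⟨c', rfl⟩ := hh'
      rw [tG_mul, tG_mul, mul_comm]
    have : h * y * h⁻¹ = (h * l₁ * h⁻¹) * h' * (h * l₂ * h⁻¹) := by
      have e3 : h * h' * h⁻¹ = h' := by rw [hcomm]; group
      calc h * y * h⁻¹ = (h * l₁ * h⁻¹) * (h * h' * h⁻¹) * (h * l₂ * h⁻¹) := by rw [e]; group
        _ = _ := by rw [e3]
    rw [this]
    exact Subgroup.mul_mem _ (Subgroup.mul_mem _ (hLK (diag_fixed_conj_fixGroup hD σ hh hfix hl₁)) hh'K)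
      (hLK (diag_fixed_conj_fixGroup hD σ hh hfix hl₂))
  refine ⟨?_, ?_⟩
  · rw [eq_bot_iff]
    rintro g ⟨hg, hc⟩
    rw [Subgroup.mem_bot]
    exact hcen g hg hc
  · intro g hg
    constructor
    · intro hn
      have hz : g⁻¹ * glMap D σ g = 1 := by
        apply hcen _ (Subgroup.mul_mem _ (Subgroup.inv_mem _ hg) (glMap_mem_group hD σ hg))
        rw [Subgroup.mem_centralizer_iff]
        intro y hy
        have h1 : g * y * g⁻¹ ∈ K := (Subgroup.mem_normalizer_iff.mp hn y).mp hy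
        have h2 := hKfix _ h1
        rw [map_mul, map_mul, map_inv, hKfix y hy] at h2
        have h3 : y * g⁻¹ = g⁻¹ * (glMap D σ g * y * (glMap D σ g)⁻¹) := by rw [h2]; group
        calc y * (g⁻¹ * glMap D σ g) = (y * g⁻¹) * glMap D σ g := by group
          _ = g⁻¹ * glMap D σ g * y := by rw [h3]; group
      have := congrArg (fun z => g * z) hz
      simpa using this
    · intro hfix
      obtain ⟨l₁, hl₁, h, hh, hhfix, l₂, hl₂, e⟩ := fixed_decomp hD σ hg hfix
      have hhn : h ∈ Subgroup.normalizer (K : Set (GL D.Idx F)) := by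
        rw [Subgroup.mem_normalizer_iff]
        intro y
        constructor
        · exact hconj h hh hhfix y
        · intro hy
          have := hconj h⁻¹ (Subgroup.inv_mem _ hh) (by rw [map_inv, hhfix]) _ hy
          have e2 : h⁻¹ * (h * y * h⁻¹) * h⁻¹⁻¹ = y := by group
          rwa [e2] at this
      rw [e]
      exact Subgroup.mul_mem _ (Subgroup.mul_mem _ (Subgroup.le_normalizer (hLK hl₁)) hhn)
        (Subgroup.le_normalizer (hLK hl₂))

end

end Cfsg.Agent.Lib.Helper8
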