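import Cfsg.Agent.Lib.Helper8.RootCentrData
import Cfsg.Agent.Lib.Helper8.TopWit

set_option autoImplicit false
set_option linter.unusedSectionVars false

namespace Cfsg.Agent.Lib.Helper8

open Cfsg Cfsg.Lie

theorem map_conj_mul {G : Type*} [Group G] (a b : G) (K : Subgroup G) :
    K.map (MulAut.conj (a * b)).toMonoidHom =
      (K.map (MulAut.conj b).toMonoidHom).map (MulAut.conj a).toMonoidHom := by
  rw [Subgroup.map_map]
  congr 1
  ext x
  simp [mul_assoc]

theorem map_conj_one {G : Type*} [Group G] (K : Subgroup G) :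
    K.map (MulAut.conj (1 : G)).toMonoidHom = K := by
  ext x
  simp

noncomputable def chkTopWit (D : ChevalleyDatum) (nrow : ℕ → ℕ) (tab : List (List ℕ)) : Bool :=
  allR (fun r => Nat.beq r 0 || ((tab.getD r []).all (fun i => Nat.blt i D.rank) &&
    (Nat.ble (D.nroots / 2) (wR9 nrow (tab.getD r []) (D.nroots - 1)) &&
      Nat.ble (D.nroots / 2) (wR9 nrow (tab.getD r []) r)))) (D.nroots / 2)

theorem chkTopWit_G2 : chkTopWit chevG2 (nrowOf chevG2) topWitG2 = true := by decide +kernel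
theorem chkTopWit_D4 : chkTopWit chevD4 (nrowOf chevD4) topWitD4 = true := by decide +kernel
theorem chkTopWit_E6 : chkTopWit chevE6 (nrowOf chevE6) topWitE6 = true := by decide +kernel
theorem chkTopWit_E7 : chkTopWit chevE7 (nrowOf chevE7) topWitE7 = true := by decide +kernel
theorem chkTopWit_E8 : chkTopWit chevE8 (nrowOf chevE8) topWitE8 = true := by decide +kernel

section
variable {D : ChevalleyDatum} (hD : D ∈ allData) {F : Type*} [Field F]
include hD

theorem topWit_spec {tab : List (List ℕ)} (h : chkTopWit D (nrowOf D) tab = true)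
    (hθ : D.IsPosRoot (D.nroots - 1)) :
    ∀ r < D.nroots, r ≠ 0 → ∃ M : List ℕ, (∀ i ∈ M, i < D.rank) ∧ D.IsPosRoot (wR D M (D.nroots - 1)) ∧
      D.IsPosRoot (wR D M r) := by
  intro r hr hr0
  by_cases hpos : D.nroots / 2 ≤ r
  · exact ⟨[], by simp, hθ, (isPos_iff hD).mpr ⟨hpos, hr⟩⟩
  · simp only [chkTopWit, allR_iff] at h
    have h1 := h r (by omega)
    simp only [Bool.or_eq_true, Bool.and_eq_true, Nat.beq_eq, List.all_eq_true, Nat.blt_eq, Nat.ble_eq] at h1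
    rcases h1 with h1 | ⟨h1, h2, h3⟩
    · exact absurd h1 hr0
    · rw [wR9_eq hD _ h1 hθ.1] at h2
      rw [wR9_eq hD _ h1 hr] at h3
      have hact := act_nR (F := ℚ) hD _ h1
      exact ⟨_, h1, (isPos_iff hD).mpr ⟨h2, hact.lt _ hθ.1⟩, (isPos_iff hD).mpr ⟨h3, hact.lt _ hr⟩⟩

theorem map_conj_root {n : GL D.Idx F} {π : ℕ → ℕ} (h : Act hD n π) {s : ℕ} (hs : s < D.nroots) :
    (D.rootSubgroup F s).map (MulAut.conj n).toMonoidHom = D.rootSubgroup F (π s) := by
  obtain ⟨κ, hκ⟩ := h.conj s hs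
  ext y
  constructor
  · rintro ⟨x, hx, rfl⟩
    obtain ⟨t, rfl⟩ := (mem_rootSubgroup hD).mp hx
    show n * xG hD F s t * n⁻¹ ∈ _
    rw [hκ]
    exact (mem_rootSubgroup hD).mpr ⟨_, rfl⟩
  · intro hy
    obtain ⟨t, rfl⟩ := (mem_rootSubgroup hD).mp hy
    refine ⟨xG hD F s ((κ⁻¹ : Fˣ) * t), (mem_rootSubgroup hD).mpr ⟨_, rfl⟩, ?_⟩
    show n * xG hD F s ((κ⁻¹ : Fˣ) * t) * n⁻¹ = _
    rw [hκ, ← mul_assoc, Units.mul_inv, one_mul]

theorem map_conj_cenX {θ : ℕ} {c : GL D.Idx F} (hc : c ∈ cenX hD F θ) :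
    (D.rootSubgroup F θ).map (MulAut.conj c).toMonoidHom = D.rootSubgroup F θ := by
  ext y
  constructor
  · rintro ⟨x, hx, rfl⟩
    obtain ⟨t, rfl⟩ := (mem_rootSubgroup hD).mp hx
    show c * xG hD F θ t * c⁻¹ ∈ _
    rw [(mem_cenX hD).mp hc t, mul_inv_cancel_right]
    exact hx
  · intro hy
    obtain ⟨t, rfl⟩ := (mem_rootSubgroup hD).mp hy
    refine ⟨xG hD F θ t, hy, ?_⟩
    show c * xG hD F θ t * c⁻¹ = _
    rw [(mem_cenX hD).mp hc t, mul_inv_cancel_right]

theorem rootSubgroup_le_posU {s : ℕ} (hs : D.IsPosRoot s) : D.rootSubgroup F s ≤ D.posUnipotent F := by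
  intro y hy
  obtain ⟨t, rfl⟩ := (mem_rootSubgroup hD).mp hy
  exact xG_mem_posU hD hs t

theorem posU_isPGroup [Fintype F] (p : ℕ) [CharP F p] : IsPGroup p ↥(D.posUnipotent F) := by
  obtain ⟨k, -, hk⟩ := FiniteField.card F p
  apply IsPGroup.of_card (n := k * (D.nroots / 2))
  rw [card_posU hD, hk, pow_mul]

theorem top_pair [Fintype F] (p : ℕ) [CharP F p] {θ : ℕ} (hθ : D.IsPosRoot θ)
    (hU : ∀ s, D.IsPosRoot s → ∀ a : F, xG hD F s a ∈ cenX hD F θ)
    (hw : ∀ r < D.nroots, r ≠ D.neg θ → ∃ M : List ℕ, (∀ i ∈ M, i < D.rank) ∧ D.IsPosRoot (wR D M θ) ∧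
      D.IsPosRoot (wR D M r))
    {g : GL D.Idx F} (hg : g ∈ D.group F) :
    IsPGroup p ↥(D.rootSubgroup F θ ⊔ (D.rootSubgroup F θ).map (MulAut.conj g).toMonoidHom) ∨
    ∃ h ∈ D.group F, (D.rootSubgroup F θ ⊔ (D.rootSubgroup F θ).map (MulAut.conj g).toMonoidHom).map
      (MulAut.conj h).toMonoidHom = D.rootSubgroup F θ ⊔ D.rootSubgroup F (D.neg θ) := by
  have hUC : D.posUnipotent F ≤ cenX hD F θ := posU_le_of hD hU
  obtain ⟨b, hb, L, hL, u, hu, e⟩ := normal_form_exists hD hg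
  have hact := act_nR (F := F) hD L hL.lt
  have hbX : (D.rootSubgroup F θ).map (MulAut.conj b).toMonoidHom = D.rootSubgroup F θ := by
    obtain ⟨u1, hu1, h, hh, rfl⟩ := mem_borel hD hb
    rw [diag_eq_torus hD, mem_torus] at hh
    obtain ⟨c, rfl⟩ := hh
    rw [map_conj_mul, map_conj_root hD (act_tG hD c) hθ.1]
    exact map_conj_cenX hD (hUC hu1)
  have hgX : (D.rootSubgroup F θ).map (MulAut.conj g).toMonoidHom =
      (D.rootSubgroup F (wR D L θ)).map (MulAut.conj b).toMonoidHom := by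
    rw [e, map_conj_mul, map_conj_mul, map_conj_cenX hD (hUC (Uw_le_posU _ hu)), map_conj_root hD hact hθ.1]
  have hsup : D.rootSubgroup F θ ⊔ (D.rootSubgroup F θ).map (MulAut.conj g).toMonoidHom =
      (D.rootSubgroup F θ ⊔ D.rootSubgroup F (wR D L θ)).map (MulAut.conj b).toMonoidHom := by
    rw [Subgroup.map_sup, hbX, hgX]
  rw [hsup]
  by_cases hr : wR D L θ = D.neg θ
  · right
    refine ⟨b⁻¹, Subgroup.inv_mem _ (borel_le_group hD hb), ?_⟩
    rw [← map_conj_mul, inv_mul_cancel, map_conj_one, hr]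
  · left
    obtain ⟨M, hM, h1, h2⟩ := hw _ (hact.lt θ hθ.1) hr
    have hactM := act_nR (F := F) hD M hM
    have hle : (D.rootSubgroup F θ ⊔ D.rootSubgroup F (wR D L θ)).map (MulAut.conj (nR hD F M)).toMonoidHom ≤
        D.posUnipotent F := by
      rw [Subgroup.map_sup, map_conj_root hD hactM hθ.1, map_conj_root hD hactM (hact.lt θ hθ.1)]
      exact sup_le (rootSubgroup_le_posU hD h1) (rootSubgroup_le_posU hD h2)
    have hp := (posU_isPGroup (F := F) hD p).to_le hle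
    have e2 : (D.rootSubgroup F θ ⊔ D.rootSubgroup F (wR D L θ)).map (MulAut.conj b).toMonoidHom =
        ((D.rootSubgroup F θ ⊔ D.rootSubgroup F (wR D L θ)).map (MulAut.conj (nR hD F M)).toMonoidHom).map
          (MulAut.conj (b * (nR hD F M)⁻¹)).toMonoidHom := by
      rw [← map_conj_mul, inv_mul_cancel_right]
    rw [e2]
    exact hp.map _

end

end Cfsg.Agent.Lib.Helper8
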